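import Mathlib
import Cfsg.Prelude.Def_Local
import Cfsg.Agent.Lib.Helper38.Alt3.Defs

/-!
# S2928 packages (helper82)

`n ≥ 8`, `H ≤ Sym(n)` contains a Sylow `2`-subgroup of `Alt(n)` and `F*(H)` is quasisimple: then
`F*(H)` is an alternating group of degree `m`, `n - 3 ≤ m ≤ n`.

Built on helper38's `Alt3` interface (`QS H L`, `altOn`, `LemF`, `LemQ`, ...).
Each package is a `Prop`; see the notes, topic S2928.
-/

set_option autoImplicit false

namespace Cfsg.Agent.Lib.Helper82.Alt2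

open Equiv
open Cfsg.Agent.Lib.Helper38.Alt3 (QS altOn)

/-- `DT s g`: `g` is an involution whose set of moved points is exactly `s`
(for `s.card = 4`: one of the three double transpositions on `s`). -/
def DT {n : ℕ} (s : Finset (Fin n)) (g : Perm (Fin n)) : Prop :=
  g * g = 1 ∧ ∀ x, g x ≠ x ↔ x ∈ s

/-- The image of a finset under a permutation. -/
def img {n : ℕ} (g : Perm (Fin n)) (s : Finset (Fin n)) : Finset (Fin n) := s.map g.toEmbedding

/-- The `4`-sets `s` such that the Klein four-group on `s` lies in `H`. -/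
def Fam {n : ℕ} (H : Subgroup (Perm (Fin n))) : Set (Finset (Fin n)) :=
  {s | s.card = 4 ∧ ∀ g, DT s g → g ∈ H}

theorem mem_Fam {n : ℕ} {H : Subgroup (Perm (Fin n))} {s : Finset (Fin n)} :
    s ∈ Fam H ↔ s.card = 4 ∧ ∀ g, DT s g → g ∈ H := Iff.rfl

theorem mem_img {n : ℕ} {g : Perm (Fin n)} {s : Finset (Fin n)} {y : Fin n} :
    y ∈ img g s ↔ ∃ x ∈ s, g x = y := by
  unfold img
  rw [Finset.mem_map]
  rfl

theorem apply_mem_img {n : ℕ} {g : Perm (Fin n)} {s : Finset (Fin n)} {x : Fin n} :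
    g x ∈ img g s ↔ x ∈ s := by
  rw [mem_img]
  constructor
  · rintro ⟨y, hy, hxy⟩
    rwa [← g.injective hxy]
  · intro hx
    exact ⟨x, hx, rfl⟩

theorem card_img {n : ℕ} (g : Perm (Fin n)) (s : Finset (Fin n)) : (img g s).card = s.card :=
  Finset.card_map _

theorem img_one {n : ℕ} (s : Finset (Fin n)) : img 1 s = s := by
  ext y
  rw [mem_img]
  constructor
  · rintro ⟨x, hx, rfl⟩
    simpa using hx
  · intro hy
    exact ⟨y, hy, rfl⟩

theorem img_mul {n : ℕ} (g h : Perm (Fin n)) (s : Finset (Fin n)) :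
    img (g * h) s = img g (img h s) := by
  ext y
  simp only [mem_img]
  constructor
  · rintro ⟨x, hx, rfl⟩
    exact ⟨h x, ⟨x, hx, rfl⟩, rfl⟩
  · rintro ⟨z, ⟨x, hx, rfl⟩, rfl⟩
    exact ⟨x, hx, rfl⟩

/-- conjugating back an involution supported on `img h s` -/
theorem DT_conj_symm {n : ℕ} {s : Finset (Fin n)} {g h : Perm (Fin n)} (hg : DT (img h s) g) :
    DT s (h⁻¹ * g * h) := by
  obtain ⟨h1, h2⟩ := hg
  refine ⟨?_, fun x => ?_⟩
  · have : h⁻¹ * g * h * (h⁻¹ * g * h) = h⁻¹ * (g * g) * h := by group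
    rw [this, h1]
    group
  · rw [← apply_mem_img (g := h), ← h2 (h x)]
    simp only [Perm.mul_apply]
    constructor
    · intro hne heq
      apply hne
      rw [heq]
      simp
    · intro hne heq
      apply hne
      have := congrArg h heq
      simpa using this

/-- conjugating an involution supported on `s` -/
theorem DT_conj {n : ℕ} {s : Finset (Fin n)} {g : Perm (Fin n)} (h : Perm (Fin n)) (hg : DT s g) :
    DT (img h s) (h * g * h⁻¹) := by
  have h0 : img h⁻¹ (img h s) = s := by rw [← img_mul, inv_mul_cancel, img_one]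
  have h1 : DT (img h⁻¹ (img h s)) g := by rw [h0]; exact hg
  have h2 := DT_conj_symm h1
  simpa using h2

/-- `Fam H` is invariant under `H`. -/
theorem Fam_img {n : ℕ} {H : Subgroup (Perm (Fin n))} {s : Finset (Fin n)} (hs : s ∈ Fam H)
    {h : Perm (Fin n)} (hh : h ∈ H) : img h s ∈ Fam H := by
  refine ⟨by rw [card_img]; exact hs.1, fun g hg => ?_⟩
  have h1 := hs.2 _ (DT_conj_symm hg)
  have h2 : g = h * (h⁻¹ * g * h) * h⁻¹ := by group
  rw [h2]
  exact H.mul_mem (H.mul_mem hh h1) (H.inv_mem hh)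

/-- two members meet -/
def Meets {n : ℕ} (F : Set (Finset (Fin n))) (a b : Finset (Fin n)) : Prop :=
  a ∈ F ∧ b ∈ F ∧ (a ∩ b).Nonempty

/-- the family is connected under `Meets` -/
def Conn {n : ℕ} (F : Set (Finset (Fin n))) : Prop :=
  ∀ s ∈ F, ∀ t ∈ F, Relation.ReflTransGen (Meets F) s t

/-- no two members meet in `1` or `3` points -/
def Even4 {n : ℕ} (F : Set (Finset (Fin n))) : Prop :=
  ∀ s ∈ F, ∀ t ∈ F, (s ∩ t).card ≠ 1 ∧ (s ∩ t).card ≠ 3

/-- three members through a point `x` with no second common point (`a ≠ b`) -/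
def Tri {n : ℕ} (F : Set (Finset (Fin n))) : Prop :=
  ∃ (x : Fin n) (a b c : Finset (Fin n)), a ∈ F ∧ b ∈ F ∧ c ∈ F ∧ x ∈ a ∧ x ∈ b ∧ x ∈ c ∧ a ≠ b ∧
    ∀ y, y ∈ a → y ∈ b → y ∈ c → y = x

/-- closed under symmetric differences of members meeting in exactly two points -/
def DeltaClosed {n : ℕ} (F : Set (Finset (Fin n))) : Prop :=
  ∀ s ∈ F, ∀ t ∈ F, (s ∩ t).card = 2 → symmDiff s t ∈ F

/-- The complements of the seven lines of the Fano plane on `Fin 7`
(point `j` is the vector `j + 1` of `𝔽₂³`; lines are `{a, b, a xor b}`). -/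
def colines : Finset (Finset (Fin 7)) :=
  {{3, 4, 5, 6}, {1, 2, 5, 6}, {1, 2, 3, 4}, {0, 2, 4, 6}, {0, 2, 3, 5}, {0, 1, 4, 5}, {0, 1, 3, 6}}

/-- The fourteen planes of `AG(3,2)` on `Fin 8` (point `j` is the vector `j` of `𝔽₂³`). -/
def planes : Finset (Finset (Fin 8)) :=
  {{0, 1, 2, 3}, {0, 1, 4, 5}, {0, 1, 6, 7}, {0, 2, 4, 6}, {0, 2, 5, 7}, {0, 3, 4, 7}, {0, 3, 5, 6},
   {4, 5, 6, 7}, {2, 3, 6, 7}, {2, 3, 4, 5}, {1, 3, 5, 7}, {1, 3, 4, 6}, {1, 2, 5, 6}, {1, 2, 4, 7}}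

/-! ## The packages -/

/-- (SYL) a Sylow `2`-subgroup of `Alt(n)` gives `n / 4` pairwise disjoint Klein four-groups. -/
def PkgSyl : Prop :=
  ∀ (n : ℕ) (_hn : 8 ≤ n) (H : Subgroup (Perm (Fin n))),
    (∃ P : Sylow 2 ↥(alternatingGroup (Fin n)),
      ((P : Subgroup ↥(alternatingGroup (Fin n))).map (alternatingGroup (Fin n)).subtype) ≤ H) →
    ∃ (s₁ s₂ : Finset (Fin n)) (S : Finset (Fin n)), s₁ ∈ Fam H ∧ s₂ ∈ Fam H ∧ Disjoint s₁ s₂ ∧
      n - 3 ≤ S.card ∧ ∀ x ∈ S, ∃ s ∈ Fam H, x ∈ s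

/-- (ODD) two members meeting in `1` or `3` points give a `3`-cycle in `H`. -/
def PkgOdd : Prop :=
  ∀ (n : ℕ) (H : Subgroup (Perm (Fin n))) (s t : Finset (Fin n)), s ∈ Fam H → t ∈ Fam H →
    ((s ∩ t).card = 1 ∨ (s ∩ t).card = 3) → ∃ c ∈ H, c.IsThreeCycle

/-- (ALT3) with a `3`-cycle in `H`: `L` is the alternating group on a set `O` that contains every
member of `Fam H`. -/
def PkgAlt3 : Prop :=
  ∀ (n : ℕ) (H L : Subgroup (Perm (Fin n))), QS H L → ∀ c ∈ H, c.IsThreeCycle →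
    ∃ O : Set (Fin n), L = altOn n O ∧ ∀ s ∈ Fam H, ∀ x ∈ s, x ∈ O

/-- (MOVE) `L` lies in the group generated by the Klein groups on the `L`-translates of `s`, and
some translate of `s` meets `s` without being equal to it. -/
def PkgMove : Prop :=
  ∀ (n : ℕ) (H L : Subgroup (Perm (Fin n))), QS H L → ∀ s ∈ Fam H,
    L ≤ Subgroup.closure {g | ∃ l ∈ L, DT (img l s) g} ∧
    ∃ l ∈ L, img l s ≠ s ∧ (img l s ∩ s).Nonempty

/-- (CONN) `Fam H` is connected. -/
def PkgConn : Prop :=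
  ∀ (n : ℕ) (H L : Subgroup (Perm (Fin n))), QS H L → Conn (Fam H)

/-- (DELTA) `Fam H` is closed under symmetric differences of members meeting in two points. -/
def PkgDelta : Prop :=
  ∀ (n : ℕ) (H : Subgroup (Perm (Fin n))), DeltaClosed (Fam H)

/-- (PAIR) even intersections and no triangle: impossible. -/
def PkgPair : Prop :=
  ∀ (n : ℕ) (H L : Subgroup (Perm (Fin n))), QS H L → Even4 (Fam H) → ¬ Tri (Fam H) →
    (Fam H).Nonempty → False

/-- (FANO7) a triangle generates a Fano configuration. -/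
def PkgFano7 : Prop :=
  ∀ (n : ℕ) (F : Set (Finset (Fin n))), (∀ s ∈ F, s.card = 4) → Even4 F → DeltaClosed F → Tri F →
    ∃ ψ : Fin 7 ↪ Fin n, ∀ A ∈ colines, A.map ψ ∈ F

/-- (FANO8) a Fano configuration in a connected family with two disjoint members extends to
`AG(3,2)`. -/
def PkgFano8 : Prop :=
  ∀ (n : ℕ) (F : Set (Finset (Fin n))), (∀ s ∈ F, s.card = 4) → Even4 F → DeltaClosed F → Conn F →
    (∃ s₁ ∈ F, ∃ s₂ ∈ F, Disjoint s₁ s₂) →
    ∀ ψ : Fin 7 ↪ Fin n, (∀ A ∈ colines, A.map ψ ∈ F) →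
    ∃ φ : Fin 8 ↪ Fin n, ∀ A ∈ planes, A.map φ ∈ F

/-- (FANOALL) then every member is a plane. -/
def PkgFanoAll : Prop :=
  ∀ (n : ℕ) (F : Set (Finset (Fin n))), (∀ s ∈ F, s.card = 4) → Even4 F → Conn F →
    ∀ φ : Fin 8 ↪ Fin n, (∀ A ∈ planes, A.map φ ∈ F) → ∀ s ∈ F, ∃ A ∈ planes, s = A.map φ

/-- (AFF) the affine configuration is impossible. -/
def PkgAff : Prop :=
  ∀ (n : ℕ) (H L : Subgroup (Perm (Fin n))), QS H L → ∀ φ : Fin 8 ↪ Fin n,
    (∀ A ∈ planes, A.map φ ∈ Fam H) →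
    L ≤ Subgroup.closure {g | ∃ A ∈ planes, DT (A.map φ) g} → False

/-- The statement of S2928. -/
def S2928Stmt : Prop :=
  ∀ (n : ℕ) (_hn : 8 ≤ n) (H : Subgroup (Perm (Fin n)))
    (_hF : Cfsg.IsQuasisimple ↥(Cfsg.generalizedFittingSubgroup ↥H))
    (_hS : ∃ P : Sylow 2 ↥(alternatingGroup (Fin n)),
      ((P : Subgroup ↥(alternatingGroup (Fin n))).map (alternatingGroup (Fin n)).subtype) ≤ H),
    ∃ m : ℕ, (m = n - 3 ∨ m = n - 2 ∨ m = n - 1 ∨ m = n) ∧
      Nonempty (↥(Cfsg.generalizedFittingSubgroup ↥H) ≃* ↥(alternatingGroup (Fin m)))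

end Cfsg.Agent.Lib.Helper82.Alt2
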