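import Mathlib
import Cfsg.Agent.Lib.Helper82.Alt2.Defs

/-!
# S2928: assembly from the packages (helper82)
-/

set_option autoImplicit false

namespace Cfsg.Agent.Lib.Helper82.Alt2

open Equiv
open Cfsg.Agent.Lib.Helper38.Alt3 (QS altOn LemF LemAIso)

/-- S2928 from the packages. -/
theorem s2928_of (hF : LemF.{0}) (hA1 : LemAIso) (hSyl : PkgSyl) (hOdd : PkgOdd) (hAlt : PkgAlt3)
    (hMove : PkgMove) (hConn : PkgConn) (hDelta : PkgDelta) (hPair : PkgPair) (hF7 : PkgFano7)
    (hF8 : PkgFano8) (hFAll : PkgFanoAll) (hAff : PkgAff) : S2928Stmt := by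
  intro n hn H hQSim hSylow
  classical
  obtain ⟨s₁, s₂, S, hs₁, hs₂, hdis, hScard, hScov⟩ := hSyl n hn H hSylow
  have qs := hF H hQSim
  obtain ⟨L, hL⟩ : ∃ L : Subgroup (Perm (Fin n)),
      L = (Cfsg.generalizedFittingSubgroup ↥H).map H.subtype := ⟨_, rfl⟩
  rw [← hL] at qs
  have hcard4 : ∀ s ∈ Fam H, s.card = 4 := fun s hs => hs.1
  by_cases hev : Even4 (Fam H)
  · -- all intersections even: impossible
    exfalso
    by_cases htri : Tri (Fam H)
    · have hconn := hConn n H L qs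
      have hdelta := hDelta n H
      obtain ⟨ψ, hψ⟩ := hF7 n (Fam H) hcard4 hev hdelta htri
      obtain ⟨φ, hφ⟩ := hF8 n (Fam H) hcard4 hev hdelta hconn ⟨s₁, hs₁, s₂, hs₂, hdis⟩ ψ hψ
      have hall := hFAll n (Fam H) hcard4 hev hconn φ hφ
      refine hAff n H L qs φ hφ ?_
      refine (hMove n H L qs s₁ hs₁).1.trans (Subgroup.closure_mono ?_)
      rintro g ⟨l, hl, hg⟩
      obtain ⟨A, hA, hAeq⟩ := hall (img l s₁) (Fam_img hs₁ (qs.le hl))
      exact ⟨A, hA, hAeq ▸ hg⟩
    · exact hPair n H L qs hev htri ⟨s₁, hs₁⟩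
  · -- an odd intersection: a `3`-cycle
    have hodd : ∃ s ∈ Fam H, ∃ t ∈ Fam H, (s ∩ t).card = 1 ∨ (s ∩ t).card = 3 := by
      by_contra hcon
      apply hev
      intro s hs t ht
      constructor
      · intro h1
        exact hcon ⟨s, hs, t, ht, Or.inl h1⟩
      · intro h3
        exact hcon ⟨s, hs, t, ht, Or.inr h3⟩
    obtain ⟨s, hs, t, ht, hst⟩ := hodd
    obtain ⟨c, hcH, hc3⟩ := hOdd n H s t hs ht hst
    obtain ⟨O, hLO, hcov⟩ := hAlt n H L qs c hcH hc3
    have hSO : ∀ y ∈ S, y ∈ O := by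
      intro y hy
      obtain ⟨u, hu, hyu⟩ := hScov y hy
      exact hcov u hu y hyu
    have hm1 : n - 3 ≤ Nat.card O := by
      have h1 : (S : Set (Fin n)).ncard ≤ O.ncard :=
        Set.ncard_le_ncard (fun y hy => hSO y hy) (Set.toFinite _)
      rw [Set.ncard_coe_finset] at h1
      rw [Nat.card_coe_set_eq]
      omega
    have hm2 : Nat.card O ≤ n := by
      have h1 : Nat.card O ≤ Nat.card (Fin n) :=
        Nat.card_le_card_of_injective _ Subtype.val_injective
      simpa using h1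
    refine ⟨Nat.card O, by omega, ?_⟩
    obtain ⟨e⟩ := hA1 n O _ rfl
    have e0 : ↥(Cfsg.generalizedFittingSubgroup ↥H) ≃*
        ↥((Cfsg.generalizedFittingSubgroup ↥H).map H.subtype) :=
      Subgroup.equivMapOfInjective _ H.subtype H.subtype_injective
    have hEq : (Cfsg.generalizedFittingSubgroup ↥H).map H.subtype = altOn n O := by
      rw [← hL]; exact hLO
    exact ⟨e0.trans ((MulEquiv.subgroupCongr hEq).trans e)⟩

end Cfsg.Agent.Lib.Helper82.Alt2
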