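import Mathlib
import Cfsg.Agent.Lib.Helper82.Alt2.Defs
import Cfsg.Agent.Lib.Helper38.Alt3.LemQ
import Cfsg.Agent.Lib.Helper62.Alt2.Klein

/-!
# S2928: package [PAIR] (helper82)

Even intersections and no triangle: every point of a member has a partner lying in every member
through it; the partner involutions generate an abelian normal subgroup, which is impossible.
-/

set_option autoImplicit false

namespace Cfsg.Agent.Lib.Helper82.Alt2

open Equiv
open Cfsg.Agent.Lib.Helper38.Alt3 (QS LemQ lemQ)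
open Cfsg.Agent.Lib.Helper62.Alt2 (dt_exists dt_apply_mem dt_apply_ne dt_apply_of_notMem
  dt_sq_apply)

variable {n : ℕ}

/-- `y` is a partner of `x`: every member through `x` contains `y ≠ x`. -/
def Par (F : Set (Finset (Fin n))) (x y : Fin n) : Prop :=
  y ≠ x ∧ ∀ C ∈ F, x ∈ C → y ∈ C

theorem pair_card_two {F : Set (Finset (Fin n))} (hc : ∀ s ∈ F, s.card = 4) (he : Even4 F)
    {A B : Finset (Fin n)} (hA : A ∈ F) (hB : B ∈ F) (hAB : A ≠ B) {x : Fin n} (hxA : x ∈ A)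
    (hxB : x ∈ B) : (A ∩ B).card = 2 := by
  have h1 : 1 ≤ (A ∩ B).card := Finset.card_pos.mpr ⟨x, Finset.mem_inter.mpr ⟨hxA, hxB⟩⟩
  have h2 : (A ∩ B).card ≤ A.card := Finset.card_le_card Finset.inter_subset_left
  have h3 : (A ∩ B).card ≠ 4 := by
    intro h4
    apply hAB
    have e1 : A ∩ B = A :=
      Finset.eq_of_subset_of_card_le Finset.inter_subset_left (by rw [h4, hc A hA])
    have e2 : A ∩ B = B :=
      Finset.eq_of_subset_of_card_le Finset.inter_subset_right (by rw [h4, hc B hB])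
    exact e1.symm.trans e2
  have h4 := he A hA B hB
  have h5 := hc A hA
  omega

theorem pair_par {F : Set (Finset (Fin n))} (hc : ∀ s ∈ F, s.card = 4) (he : Even4 F)
    (hT : ¬ Tri F) {A B : Finset (Fin n)} (hA : A ∈ F) (hB : B ∈ F) (hAB : A ≠ B) {x : Fin n}
    (hxA : x ∈ A) (hxB : x ∈ B) : ∃ y, Par F x y ∧ A ∩ B = {x, y} := by
  have h2 := pair_card_two hc he hA hB hAB hxA hxB
  obtain ⟨a, b, hab, hE⟩ := Finset.card_eq_two.mp h2
  have hx : x ∈ A ∩ B := Finset.mem_inter.mpr ⟨hxA, hxB⟩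
  have key : ∀ y, y ≠ x → A ∩ B = {x, y} → Par F x y := by
    intro y hyx hE'
    refine ⟨hyx, fun C hC hxC => ?_⟩
    by_contra hyC
    apply hT
    refine ⟨x, A, B, C, hA, hB, hC, hxA, hxB, hxC, hAB, fun z hzA hzB hzC => ?_⟩
    have hz : z ∈ A ∩ B := Finset.mem_inter.mpr ⟨hzA, hzB⟩
    rw [hE'] at hz
    simp only [Finset.mem_insert, Finset.mem_singleton] at hz
    rcases hz with h | h
    · exact h
    · exact absurd (h ▸ hzC) hyC
  rw [hE] at hx
  simp only [Finset.mem_insert, Finset.mem_singleton] at hx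
  rcases hx with h | h
  · subst h
    exact ⟨b, key b (Ne.symm hab) hE, hE⟩
  · subst h
    have hE' : A ∩ B = {x, a} := by rw [hE, Finset.pair_comm]
    exact ⟨a, key a hab hE', hE'⟩

theorem par_unique {F : Set (Finset (Fin n))} (hc : ∀ s ∈ F, s.card = 4) (he : Even4 F)
    (hT : ¬ Tri F) {A B : Finset (Fin n)} (hA : A ∈ F) (hB : B ∈ F) (hAB : A ≠ B) {x : Fin n}
    (hxA : x ∈ A) (hxB : x ∈ B) {y y' : Fin n} (hy : Par F x y) (hy' : Par F x y') : y = y' := by
  obtain ⟨y0, -, hE⟩ := pair_par hc he hT hA hB hAB hxA hxB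
  have h1 : y ∈ A ∩ B := Finset.mem_inter.mpr ⟨hy.2 A hA hxA, hy.2 B hB hxB⟩
  have h2 : y' ∈ A ∩ B := Finset.mem_inter.mpr ⟨hy'.2 A hA hxA, hy'.2 B hB hxB⟩
  rw [hE] at h1 h2
  simp only [Finset.mem_insert, Finset.mem_singleton] at h1 h2
  rcases h1 with h1 | h1
  · exact absurd h1 hy.1
  · rcases h2 with h2 | h2
    · exact absurd h2 hy'.1
    · rw [h1, h2]

theorem exists_second {F : Set (Finset (Fin n))} (hc : ∀ s ∈ F, s.card = 4) (hD : DeltaClosed F)
    (h2 : ∀ s ∈ F, ∃ s' ∈ F, (s ∩ s').card = 2) {s : Finset (Fin n)} (hs : s ∈ F) {x : Fin n}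
    (hx : x ∈ s) : ∃ B ∈ F, s ≠ B ∧ x ∈ B := by
  obtain ⟨s', hs', h⟩ := h2 s hs
  by_cases hxs' : x ∈ s'
  · refine ⟨s', hs', ?_, hxs'⟩
    intro heq
    rw [← heq, Finset.inter_self, hc s hs] at h
    omega
  · refine ⟨symmDiff s s', hD s hs s' hs' h, ?_, ?_⟩
    · intro heq
      obtain ⟨z, hz⟩ : (s ∩ s').Nonempty := Finset.card_pos.mp (by omega)
      have hz1 := Finset.mem_inter.mp hz
      have hz2 : z ∈ symmDiff s s' := by
        rw [← heq]
        exact hz1.1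
      rw [Finset.mem_symmDiff] at hz2
      rcases hz2 with ⟨_, h3⟩ | ⟨_, h3⟩
      · exact h3 hz1.2
      · exact h3 hz1.1
    · rw [Finset.mem_symmDiff]
      exact Or.inl ⟨hx, hxs'⟩

theorem par_exists {F : Set (Finset (Fin n))} (hc : ∀ s ∈ F, s.card = 4) (he : Even4 F)
    (hT : ¬ Tri F) (hD : DeltaClosed F) (h2 : ∀ s ∈ F, ∃ s' ∈ F, (s ∩ s').card = 2)
    {s : Finset (Fin n)} (hs : s ∈ F) {x : Fin n} (hx : x ∈ s) : ∃ y, Par F x y ∧ y ∈ s := by
  obtain ⟨B, hB, hsB, hxB⟩ := exists_second hc hD h2 hs hx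
  obtain ⟨y, hy, -⟩ := pair_par hc he hT hs hB hsB hx hxB
  exact ⟨y, hy, hy.2 s hs hx⟩

theorem par_unique' {F : Set (Finset (Fin n))} (hc : ∀ s ∈ F, s.card = 4) (he : Even4 F)
    (hT : ¬ Tri F) (hD : DeltaClosed F) (h2 : ∀ s ∈ F, ∃ s' ∈ F, (s ∩ s').card = 2)
    {s : Finset (Fin n)} (hs : s ∈ F) {x : Fin n} (hx : x ∈ s) {y y' : Fin n} (hy : Par F x y)
    (hy' : Par F x y') : y = y' := by
  obtain ⟨B, hB, hsB, hxB⟩ := exists_second hc hD h2 hs hx
  exact par_unique hc he hT hs hB hsB hx hxB hy hy'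

theorem par_symm {F : Set (Finset (Fin n))} (hc : ∀ s ∈ F, s.card = 4) (he : Even4 F)
    (hT : ¬ Tri F) (hD : DeltaClosed F) (h2 : ∀ s ∈ F, ∃ s' ∈ F, (s ∩ s').card = 2)
    {s : Finset (Fin n)} (hs : s ∈ F) {x : Fin n} (hx : x ∈ s) {y : Fin n} (hy : Par F x y) :
    Par F y x := by
  obtain ⟨B, hB, hsB, hxB⟩ := exists_second hc hD h2 hs hx
  obtain ⟨y0, hy0, hE⟩ := pair_par hc he hT hs hB hsB hx hxB
  have hyy0 : y0 = y := par_unique hc he hT hs hB hsB hx hxB hy0 hy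
  rw [hyy0] at hE
  have hys : y ∈ s := hy.2 s hs hx
  have hyB : y ∈ B := hy.2 B hB hxB
  obtain ⟨y', hy', -⟩ := par_exists hc he hT hD h2 hs hys
  have h1 : y' ∈ s ∩ B := Finset.mem_inter.mpr ⟨hy'.2 s hs hys, hy'.2 B hB hyB⟩
  rw [hE] at h1
  simp only [Finset.mem_insert, Finset.mem_singleton] at h1
  rcases h1 with h1 | h1
  · rw [← h1]
    exact hy'
  · exact absurd h1 hy'.1

/-- the involutions on members acting as the partner map -/
def ZP (F : Set (Finset (Fin n))) : Set (Perm (Fin n)) :=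
  {g | ∃ s ∈ F, DT s g ∧ ∀ x ∈ s, Par F x (g x)}

theorem zp_nonempty {F : Set (Finset (Fin n))} (hc : ∀ s ∈ F, s.card = 4) (he : Even4 F)
    (hT : ¬ Tri F) (hD : DeltaClosed F) (h2 : ∀ s ∈ F, ∃ s' ∈ F, (s ∩ s').card = 2)
    {s : Finset (Fin n)} (hs : s ∈ F) : ∃ g, DT s g ∧ ∀ x ∈ s, Par F x (g x) := by
  have h4 := hc s hs
  obtain ⟨x, hx⟩ : s.Nonempty := Finset.card_pos.mp (by omega)
  obtain ⟨y, hy, hys⟩ := par_exists hc he hT hD h2 hs hx
  obtain ⟨g, hg, hgx⟩ := dt_exists h4 hx hys (Ne.symm hy.1)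
  refine ⟨g, hg, fun u hu => ?_⟩
  have hyx : Par F y x := par_symm hc he hT hD h2 hs hx hy
  have hgy : g y = x := by rw [← hgx, dt_sq_apply hg]
  by_cases hux : u = x
  · rw [hux, hgx]
    exact hy
  by_cases huy : u = y
  · rw [huy, hgy]
    exact hyx
  obtain ⟨z, hz, hzs⟩ := par_exists hc he hT hD h2 hs hu
  have hzx : z ≠ x := by
    intro h
    rw [h] at hz
    have h' := par_symm hc he hT hD h2 hs hu hz
    exact huy (par_unique' hc he hT hD h2 hs hx h' hy)
  have hzy : z ≠ y := by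
    intro h
    rw [h] at hz
    have h' := par_symm hc he hT hD h2 hs hu hz
    exact hux (par_unique' hc he hT hD h2 hs hys h' hyx)
  have hgu : g u ∈ s := dt_apply_mem hg hu
  have hgu1 : g u ≠ u := dt_apply_ne hg hu
  have hgu2 : g u ≠ x := by
    intro h
    have h' : g (g u) = g x := by rw [h]
    rw [dt_sq_apply hg, hgx] at h'
    exact huy h'
  have hgu3 : g u ≠ y := by
    intro h
    have h' : g (g u) = g y := by rw [h]
    rw [dt_sq_apply hg, hgy] at h'
    exact hux h'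
  have e1 : (s.erase x).card = 3 := by rw [Finset.card_erase_of_mem hx, h4]
  have hy' : y ∈ s.erase x := Finset.mem_erase.mpr ⟨hy.1, hys⟩
  have e2 : ((s.erase x).erase y).card = 2 := by rw [Finset.card_erase_of_mem hy', e1]
  have hu' : u ∈ (s.erase x).erase y :=
    Finset.mem_erase.mpr ⟨huy, Finset.mem_erase.mpr ⟨hux, hu⟩⟩
  have hcard : (((s.erase x).erase y).erase u).card = 1 := by
    rw [Finset.card_erase_of_mem hu', e2]
  obtain ⟨a, ha⟩ := Finset.card_eq_one.mp hcard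
  have m1 : g u ∈ ((s.erase x).erase y).erase u :=
    Finset.mem_erase.mpr ⟨hgu1, Finset.mem_erase.mpr ⟨hgu3, Finset.mem_erase.mpr ⟨hgu2, hgu⟩⟩⟩
  have m2 : z ∈ ((s.erase x).erase y).erase u :=
    Finset.mem_erase.mpr ⟨hz.1, Finset.mem_erase.mpr ⟨hzy, Finset.mem_erase.mpr ⟨hzx, hzs⟩⟩⟩
  rw [ha, Finset.mem_singleton] at m1 m2
  rw [m1, ← m2]
  exact hz

theorem zp_comm {F : Set (Finset (Fin n))} (hc : ∀ s ∈ F, s.card = 4) (he : Even4 F)
    (hT : ¬ Tri F) (hD : DeltaClosed F) (h2 : ∀ s ∈ F, ∃ s' ∈ F, (s ∩ s').card = 2)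
    {g g' : Perm (Fin n)} (hg : g ∈ ZP F) (hg' : g' ∈ ZP F) : g * g' = g' * g := by
  obtain ⟨s, hs, hgs, hp⟩ := hg
  obtain ⟨s', hs', hgs', hp'⟩ := hg'
  ext u
  rw [Perm.mul_apply, Perm.mul_apply]
  by_cases hu : u ∈ s <;> by_cases hu' : u ∈ s'
  · have e : g u = g' u := par_unique' hc he hT hD h2 hs hu (hp u hu) (hp' u hu')
    have h1 : g (g' u) = u := by rw [← e, dt_sq_apply hgs]
    have h2' : g' (g u) = u := by rw [e, dt_sq_apply hgs']
    rw [h1, h2']
  · have e1 : g' u = u := dt_apply_of_notMem hgs' hu'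
    have hgu : g u ∈ s := dt_apply_mem hgs hu
    have e2 : g u ∉ s' := by
      intro hc'
      have h3 := hp (g u) hgu
      rw [dt_sq_apply hgs] at h3
      exact hu' (h3.2 s' hs' hc')
    rw [e1, dt_apply_of_notMem hgs' e2]
  · have e1 : g u = u := dt_apply_of_notMem hgs hu
    have hgu : g' u ∈ s' := dt_apply_mem hgs' hu'
    have e2 : g' u ∉ s := by
      intro hc'
      have h3 := hp' (g' u) hgu
      rw [dt_sq_apply hgs'] at h3
      exact hu (h3.2 s hs hc')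
    rw [e1, dt_apply_of_notMem hgs e2]
  · rw [dt_apply_of_notMem hgs' hu', dt_apply_of_notMem hgs hu, dt_apply_of_notMem hgs' hu']

theorem zp_conj {H : Subgroup (Perm (Fin n))} {g h : Perm (Fin n)} (hh : h ∈ H)
    (hg : g ∈ ZP (Fam H)) : h * g * h⁻¹ ∈ ZP (Fam H) := by
  obtain ⟨s, hs, hgs, hp⟩ := hg
  refine ⟨img h s, Fam_img hs hh, DT_conj h hgs, fun y hy => ?_⟩
  obtain ⟨x, hx, rfl⟩ := mem_img.mp hy
  have e : (h * g * h⁻¹) (h x) = h (g x) := by simp [Perm.mul_apply]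
  rw [e]
  obtain ⟨h1, h2⟩ := hp x hx
  refine ⟨fun hc => h1 (h.injective hc), fun C hC hxC => ?_⟩
  have hC' : img h⁻¹ C ∈ Fam H := Fam_img hC (H.inv_mem hh)
  have hx' : x ∈ img h⁻¹ C := by
    have h3 : h⁻¹ (h x) ∈ img h⁻¹ C := apply_mem_img.mpr hxC
    simpa using h3
  have h4 := h2 _ hC' hx'
  obtain ⟨c, hcC, hc⟩ := mem_img.mp h4
  have h5 : c = h (g x) := by
    rw [← hc]
    simp
  rw [← h5]
  exact hcC

/-- (PAIR) even intersections and no triangle: impossible. -/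
theorem pkgPair_of (hM : PkgMove) (hD : PkgDelta) : PkgPair := by
  intro n H L qs he hT hne
  have hQ : LemQ.{0} := lemQ
  have hc : ∀ s ∈ Fam H, s.card = 4 := fun s hs => hs.1
  have hD' : DeltaClosed (Fam H) := hD n H
  have h2 : ∀ s ∈ Fam H, ∃ s' ∈ Fam H, (s ∩ s').card = 2 := by
    intro s hs
    obtain ⟨-, l, hl, hne', hmeet⟩ := hM n H L qs s hs
    have hls : img l s ∈ Fam H := Fam_img hs (qs.le hl)
    refine ⟨img l s, hls, ?_⟩
    obtain ⟨z, hz⟩ := hmeet
    have hz' := Finset.mem_inter.mp hz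
    have h3 := pair_card_two hc he hls hs hne' hz'.1 hz'.2
    rwa [Finset.inter_comm] at h3
  obtain ⟨s0, hs0⟩ := hne
  obtain ⟨g0, hg0, hg0p⟩ := zp_nonempty hc he hT hD' h2 hs0
  have hg0Z : g0 ∈ ZP (Fam H) := ⟨s0, hs0, hg0, hg0p⟩
  have hNH : Subgroup.closure (ZP (Fam H)) ≤ H := by
    rw [Subgroup.closure_le]
    rintro g ⟨s, hs, hgs, -⟩
    exact hs.2 g hgs
  have step1 : Subgroup.closure (ZP (Fam H)) ≤ Subgroup.centralizer (ZP (Fam H)) := by
    rw [Subgroup.closure_le]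
    intro g hg
    rw [SetLike.mem_coe, Subgroup.mem_centralizer_iff]
    intro z hz
    exact zp_comm hc he hT hD' h2 hz hg
  have step2 : Subgroup.closure (ZP (Fam H)) ≤
      Subgroup.centralizer (Subgroup.closure (ZP (Fam H)) : Set (Perm (Fin n))) := by
    rw [Subgroup.closure_le]
    intro g hg
    rw [SetLike.mem_coe, Subgroup.mem_centralizer_iff]
    intro a ha
    exact (Subgroup.mem_centralizer_iff.mp (step1 ha) g hg).symm
  have hcomm : ∀ a ∈ Subgroup.closure (ZP (Fam H)), ∀ b ∈ Subgroup.closure (ZP (Fam H)),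
      a * b = b * a := by
    intro a ha b hb
    exact Subgroup.mem_centralizer_iff.mp (step2 hb) a ha
  have hnorm : ∀ l ∈ L, ∀ m ∈ Subgroup.closure (ZP (Fam H)),
      l * m * l⁻¹ ∈ Subgroup.closure (ZP (Fam H)) := by
    intro l hl m hm
    induction hm using Subgroup.closure_induction with
    | mem x hx => exact Subgroup.subset_closure (zp_conj (qs.le hl) hx)
    | one =>
      have e : l * 1 * l⁻¹ = 1 := by group
      rw [e]
      exact Subgroup.one_mem _
    | mul x y _ _ hx hy =>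
      have e : l * (x * y) * l⁻¹ = (l * x * l⁻¹) * (l * y * l⁻¹) := by group
      rw [e]
      exact Subgroup.mul_mem _ hx hy
    | inv x _ hx =>
      have e : l * x⁻¹ * l⁻¹ = (l * x * l⁻¹)⁻¹ := by group
      rw [e]
      exact Subgroup.inv_mem _ hx
  rcases hQ H L qs _ hNH hnorm with h | ⟨-, h⟩
  · apply qs.ne
    have h3 : L ≤ ⊥ := by
      apply qs.perf
      intro a ha b hb
      rw [Subgroup.mem_bot, hcomm a (h ha) b (h hb)]
      group
    exact le_bot_iff.mp h3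
  · obtain ⟨-, l, hl, hne', -⟩ := hM n H L qs s0 hs0
    apply hne'
    have hcm : g0 * l = l * g0 := h g0 (Subgroup.subset_closure hg0Z) l hl
    have hsub : img l s0 ⊆ s0 := by
      intro y hy
      obtain ⟨x, hx, rfl⟩ := mem_img.mp hy
      apply (hg0.2 (l x)).mp
      intro hfix
      have h3 : l (g0 x) = l x := by
        have h4 := congrArg (fun σ : Perm (Fin n) => σ x) hcm
        simp only [Perm.mul_apply] at h4
        rw [← h4]
        exact hfix
      exact dt_apply_ne hg0 hx (l.injective h3)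
    exact Finset.eq_of_subset_of_card_le hsub (by rw [card_img])

end Cfsg.Agent.Lib.Helper82.Alt2
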